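import Cfsg.Agent.H893.SR.TriD4U

/-!
# `³D₄(q)`, `q` even: the commutator relation of `B` and `C` (for helper899, S3509)
-/

set_option autoImplicit false

namespace Cfsg.Agent.H327.TD

open Cfsg.Lie Cfsg.Agent.H721.SR
open Cfsg.Agent.ChevalleyStructure.D4Comm
open Cfsg.Agent.ChevalleyStructure.D4CommTab
open Cfsg.Agent.ChevalleyStructure.D4Pos
open Cfsg.Agent.ChevalleyStructure.TwistedU
open Cfsg.Agent.ChevalleyStructure.D4U
open Cfsg.Agent.H893.SR.Tri

section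
variable {K : Type*} [Field K]

/-- the central part -/
def Wc (g : GL chevD4.Idx K) : Prop := ∃ e f : K, g = E e * Z f

theorem Wc.one : Wc (1 : GL chevD4.Idx K) := ⟨0, 0, by rw [E, Z, xG_zero, xG_zero, mul_one]⟩

theorem Wc.mul {g h : GL chevD4.Idx K} (hg : Wc g) (hh : Wc h) : Wc (g * h) := by
  obtain ⟨e, f, rfl⟩ := hg
  obtain ⟨e', f', rfl⟩ := hh
  refine ⟨e + e', f + f', ?_⟩
  have h1 : Commute (Z f : GL chevD4.Idx K) (E e') := EZ f e'
  rw [eA, zA]
  calc E e * Z f * (E e' * Z f') = E e * (Z f * E e') * Z f' := by group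
    _ = E e * (E e' * Z f) * Z f' := by rw [h1.eq]
    _ = _ := by group

theorem Wc.E (e : K) : Wc (E e : GL chevD4.Idx K) := ⟨e, 0, by rw [Z, xG_zero, mul_one]⟩
theorem Wc.Z (e : K) : Wc (Z e : GL chevD4.Idx K) := ⟨0, e, by rw [H893.SR.Tri.E, xG_zero, one_mul]⟩

/-- the indices -/
def L6 : List ℕ := [18, 13, 12, 19, 16, 15]
/-- the indices -/
def L3 : List ℕ := [21, 17, 20]

theorem Wc.comm {w : GL chevD4.Idx K} (hw : Wc w) {r : ℕ} (hr : r ∈ L6 ++ L3) (t : K) : Commute w (xG r t) := by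
  obtain ⟨e, f, rfl⟩ := hw
  have key : ∀ r ∈ L6 ++ L3, (decide (12 ≤ 22) && decide (22 < 24) && decide (12 ≤ r) && decide (r < 24) &&
      decide (r ≠ 22) && (cm 22 r).isNone) = true ∧ (decide (12 ≤ 23) && decide (23 < 24) && decide (12 ≤ r) &&
      decide (r < 24) && decide (r ≠ 23) && (cm 23 r).isNone) = true := by decide +kernel
  obtain ⟨h1, h2⟩ := key r hr
  exact (cc h1 e t).mul_left (cc h2 f t)

theorem pass1 (h2 : ∀ x : K, x + x = 0) {s r : ℕ} (hs : s ∈ L3) (hr : r ∈ L6) (x t : K) :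
    ∃ w : GL chevD4.Idx K, Wc w ∧ xG s x * xG r t = xG r t * xG s x * w := by
  have key : ∀ s ∈ L3, ∀ r ∈ L6, (decide (12 ≤ s) && decide (s < 24) && decide (12 ≤ r) && decide (r < 24) &&
      decide (r ≠ s) && (cm s r).isNone) = true ∨ swB s r 22 = true ∨ swB s r 23 = true := by decide +kernel
  rcases key s hs r hr with h | h | h
  · exact ⟨1, Wc.one, by rw [mul_one, (cc h x t).eq]⟩
  · exact ⟨_, Wc.E _, sw h2 h x t⟩
  · exact ⟨_, Wc.Z _, sw h2 h x t⟩

/-- the part of degree three -/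
def DD (v : K × K × K) : GL chevD4.Idx K := xG 21 v.1 * xG 17 v.2.1 * xG 20 v.2.2

theorem Wc.commD {w : GL chevD4.Idx K} (hw : Wc w) (v : K × K × K) : Commute w (DD v) :=
  ((hw.comm (by decide) _).mul_right (hw.comm (by decide) _)).mul_right (hw.comm (by decide) _)

theorem DD_add (v v' : K × K × K) : (DD (v + v') : GL chevD4.Idx K) = DD v * DD v' := by
  have h1 : ∀ s t : K, Commute (xG 20 s : GL chevD4.Idx K) (xG 21 t) := fun s t => cc (by decide +kernel) s t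
  have h2 : ∀ s t : K, Commute (xG 17 s : GL chevD4.Idx K) (xG 21 t) := fun s t => cc (by decide +kernel) s t
  have h3 : ∀ s t : K, Commute (xG 20 s : GL chevD4.Idx K) (xG 17 t) := fun s t => cc (by decide +kernel) s t
  unfold DD
  rw [mul3 (h1 _ _) (h2 _ _) (h3 _ _)]
  show xG 21 (v.1 + v'.1) * xG 17 (v.2.1 + v'.2.1) * xG 20 (v.2.2 + v'.2.2) = _
  rw [xG_add, xG_add, xG_add]

/-- elements passing the parts of degree three and more -/
def Gd (p : GL chevD4.Idx K) : Prop :=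
  (∀ w, Wc w → Commute w p) ∧ ∀ v, ∃ w, Wc w ∧ DD v * p = p * DD v * w

theorem Gd.mul {p p' : GL chevD4.Idx K} (h : Gd p) (h' : Gd p') : Gd (p * p') := by
  refine ⟨fun w hw => (h.1 w hw).mul_right (h'.1 w hw), fun v => ?_⟩
  obtain ⟨w, hw, e⟩ := h.2 v
  obtain ⟨w', hw', e'⟩ := h'.2 v
  refine ⟨w' * w, hw'.mul hw, ?_⟩
  calc DD v * (p * p') = (DD v * p) * p' := by group
    _ = p * DD v * (w * p') := by rw [e]; group
    _ = p * (DD v * p') * w := by rw [(h'.1 w hw).eq]; group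
    _ = _ := by rw [e']; group

theorem Gd.x (h2 : ∀ x : K, x + x = 0) {r : ℕ} (hr : r ∈ L6) (t : K) : Gd (xG r t : GL chevD4.Idx K) := by
  refine ⟨fun w hw => hw.comm (List.mem_append_left _ hr) t, fun v => ?_⟩
  obtain ⟨w1, h1, e1⟩ := pass1 h2 (s := 21) (by decide) hr v.1 t
  obtain ⟨w2, h2', e2⟩ := pass1 h2 (s := 17) (by decide) hr v.2.1 t
  obtain ⟨w3, h3, e3⟩ := pass1 h2 (s := 20) (by decide) hr v.2.2 t
  refine ⟨w1 * w2 * w3, (h1.mul h2').mul h3, ?_⟩
  have c1 := h1.comm (r := 17) (by decide) v.2.1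
  have c2 := h1.comm (r := 20) (by decide) v.2.2
  have c3 := h2'.comm (r := 20) (by decide) v.2.2
  unfold DD
  calc xG 21 v.1 * xG 17 v.2.1 * xG 20 v.2.2 * xG r t
      = xG 21 v.1 * xG 17 v.2.1 * (xG 20 v.2.2 * xG r t) := by group
    _ = xG 21 v.1 * (xG 17 v.2.1 * xG r t) * xG 20 v.2.2 * w3 := by rw [e3]; group
    _ = (xG 21 v.1 * xG r t) * xG 17 v.2.1 * (w2 * xG 20 v.2.2) * w3 := by rw [e2]; group
    _ = xG r t * xG 21 v.1 * (w1 * xG 17 v.2.1) * (xG 20 v.2.2 * w2) * w3 := by rw [e1, c3.eq]; group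
    _ = xG r t * xG 21 v.1 * xG 17 v.2.1 * (w1 * xG 20 v.2.2) * w2 * w3 := by rw [c1.eq]; group
    _ = _ := by rw [c2.eq]; group

/-- commuting up to the part of degree three and more -/
def Qd (p q : GL chevD4.Idx K) (v : K × K × K) : Prop := ∃ w, Wc w ∧ p * q = q * p * DD v * w

theorem Qd.mulL {p p' q : GL chevD4.Idx K} {v v' : K × K × K} (h : Qd p q v) (h' : Qd p' q v') (hp : Gd p') :
    Qd (p * p') q (v + v') := by
  obtain ⟨w, hw, e⟩ := h
  obtain ⟨w', hw', e'⟩ := h'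
  obtain ⟨w'', hw'', e''⟩ := hp.2 v
  refine ⟨w'' * w * w', (hw''.mul hw).mul hw', ?_⟩
  calc p * p' * q = p * (p' * q) := by group
    _ = (p * q) * p' * DD v' * w' := by rw [e']; group
    _ = q * p * DD v * (w * p') * DD v' * w' := by rw [e]; group
    _ = q * p * (DD v * p') * (w * DD v') * w' := by rw [(hp.1 w hw).eq]; group
    _ = q * p * p' * DD v * (w'' * DD v') * w * w' := by rw [e'', (hw.commD v').eq]; group
    _ = q * (p * p') * (DD v * DD v') * (w'' * w * w') := by rw [(hw''.commD v').eq]; group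
    _ = _ := by rw [← DD_add]

theorem Qd.mulR {p q q' : GL chevD4.Idx K} {v v' : K × K × K} (h : Qd p q v) (h' : Qd p q' v') (hq : Gd q') :
    Qd p (q * q') (v' + v) := by
  obtain ⟨w, hw, e⟩ := h
  obtain ⟨w', hw', e'⟩ := h'
  obtain ⟨w'', hw'', e''⟩ := hq.2 v
  refine ⟨w' * w'' * w, (hw'.mul hw'').mul hw, ?_⟩
  calc p * (q * q') = (p * q) * q' := by group
    _ = q * p * DD v * (w * q') := by rw [e]; group
    _ = q * p * (DD v * q') * w := by rw [(hq.1 w hw).eq]; group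
    _ = q * (p * q') * DD v * w'' * w := by rw [e'']; group
    _ = q * q' * p * DD v' * (w' * DD v) * w'' * w := by rw [e']; group
    _ = q * q' * p * (DD v' * DD v) * (w' * w'' * w) := by rw [(hw'.commD v).eq]; group
    _ = _ := by rw [← DD_add]

theorem DD_0 : (DD 0 : GL chevD4.Idx K) = 1 := by
  show xG 21 0 * xG 17 0 * xG 20 0 = 1
  rw [xG_zero, xG_zero, xG_zero, mul_one, mul_one]

theorem Qd.of_comm {p q : GL chevD4.Idx K} (h : Commute p q) : Qd p q 0 :=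
  ⟨1, Wc.one, by rw [DD_0, mul_one, mul_one, h.eq]⟩

theorem Qd.s21 {p q : GL chevD4.Idx K} {a : K} (h : p * q = q * p * xG 21 a) : Qd p q (a, 0, 0) :=
  ⟨1, Wc.one, by rw [h, mul_one, DD, xG_zero, xG_zero, mul_one, mul_one]⟩

theorem Qd.s17 {p q : GL chevD4.Idx K} {a : K} (h : p * q = q * p * xG 17 a) : Qd p q (0, a, 0) :=
  ⟨1, Wc.one, by rw [h, mul_one, DD, xG_zero, xG_zero, one_mul, mul_one]⟩

theorem Qd.s20 {p q : GL chevD4.Idx K} {a : K} (h : p * q = q * p * xG 20 a) : Qd p q (0, 0, a) :=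
  ⟨1, Wc.one, by rw [h, mul_one, DD, xG_zero, xG_zero, one_mul, one_mul]⟩

variable {φ : K →+* K}

/-- **The relation of `B` and `C`.** -/
theorem BC (h2 : ∀ x : K, x + x = 0) (hK3 : ∀ t : K, φ (φ (φ t)) = t) (b c : K) :
    ∃ e f : K, B φ b * C φ c = C φ c * B φ b * D φ (b * φ c + φ b * c) * E e * Z f := by
  have g := fun {r : ℕ} (hr : r ∈ L6) (t : K) => Gd.x h2 hr t
  have q18 : Qd (xG 18 b) (C φ c) _ := ((Qd.of_comm (cc (r := 18) (s := 19) (by decide +kernel) b c)).mulR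
    (Qd.s21 (sw h2 (r := 18) (s := 16) (k := 21) (by decide +kernel) b (φ c))) (g (by decide) _)).mulR
    (Qd.s20 (sw h2 (r := 18) (s := 15) (k := 20) (by decide +kernel) b (φ (φ c)))) (g (by decide) _)
  have q13 : Qd (xG 13 (φ b)) (C φ c) _ :=
    ((Qd.s21 (sw h2 (r := 13) (s := 19) (k := 21) (by decide +kernel) (φ b) c)).mulR
    (Qd.of_comm (cc (r := 13) (s := 16) (by decide +kernel) (φ b) (φ c))) (g (by decide) _)).mulR
    (Qd.s17 (sw h2 (r := 13) (s := 15) (k := 17) (by decide +kernel) (φ b) (φ (φ c)))) (g (by decide) _)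
  have q12 : Qd (xG 12 (φ (φ b))) (C φ c) _ :=
    ((Qd.s20 (sw h2 (r := 12) (s := 19) (k := 20) (by decide +kernel) (φ (φ b)) c)).mulR
    (Qd.s17 (sw h2 (r := 12) (s := 16) (k := 17) (by decide +kernel) (φ (φ b)) (φ c))) (g (by decide) _)).mulR
    (Qd.of_comm (cc (r := 12) (s := 15) (by decide +kernel) (φ (φ b)) (φ (φ c)))) (g (by decide) _)
  obtain ⟨w, ⟨e, f, hw⟩, h⟩ := (q18.mulL q13 (g (by decide) _)).mulL q12 (g (by decide) _)
  refine ⟨e, f, ?_⟩
  have h3 : B φ b = xG 18 b * xG 13 (φ b) * xG 12 (φ (φ b)) := rfl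
  have hD : D φ (b * φ c + φ b * c) = xG 21 (b * φ c + φ b * c) * xG 17 (φ b * φ (φ c) + φ (φ b) * φ c) *
      xG 20 (φ (φ b) * c + b * φ (φ c)) := by
    unfold D
    congr 3
    · rw [map_add, map_mul, map_mul]
    · rw [map_add, map_mul, map_mul, map_add, map_mul, map_mul, hK3, hK3]
  rw [h3, h, hw, ← mul_assoc, hD]
  congr 3
  show xG 21 _ * xG 17 _ * xG 20 _ = _
  congr 3 <;> (simp; try ring)

end

end Cfsg.Agent.H327.TD
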