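import Cfsg.Agent.H327.TD.BC

/-!
# `³D₄(q)`, `q` even: the involutions of `⟨B, C, D, E, Z⟩` (for helper899, S3509)
-/

set_option autoImplicit false

namespace Cfsg.Agent.H327.TD

open Cfsg.Lie Cfsg.Agent.H721.SR
open Cfsg.Agent.ChevalleyStructure.D4Comm
open Cfsg.Agent.ChevalleyStructure.D4CommTab
open Cfsg.Agent.ChevalleyStructure.D4Pos
open Cfsg.Agent.ChevalleyStructure.TwistedU
open Cfsg.Agent.ChevalleyStructure.D4U
open Cfsg.Agent.H893.SR.Tri

section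
variable {K : Type*} [Field K] {φ : K →+* K}

theorem Gd.B (h2 : ∀ x : K, x + x = 0) (b : K) : Gd (B φ b) :=
  ((Gd.x h2 (by decide) _).mul (Gd.x h2 (by decide) _)).mul (Gd.x h2 (by decide) _)

theorem Gd.C (h2 : ∀ x : K, x + x = 0) (b : K) : Gd (C φ b) :=
  ((Gd.x h2 (by decide) _).mul (Gd.x h2 (by decide) _)).mul (Gd.x h2 (by decide) _)

/-- **The square.** -/
theorem sq_eq (h2 : ∀ x : K, x + x = 0) (hK3 : ∀ t : K, φ (φ (φ t)) = t) (b c d e f : K) :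
    ∃ e' f' : K, (B φ b * C φ c * D φ d * E e * Z f) * (B φ b * C φ c * D φ d * E e * Z f) =
      D φ (b * φ c + φ b * c) * E e' * Z f' := by
  obtain ⟨e1, f1, h⟩ := BC h2 hK3 b c
  obtain ⟨X, hX⟩ : ∃ X, X = B φ b * C φ c := ⟨_, rfl⟩
  obtain ⟨w, hw⟩ : ∃ w : GL chevD4.Idx K, w = E e * Z f := ⟨_, rfl⟩
  have hwc : Wc w := ⟨e, f, hw⟩
  have hD : D φ d = DD (d, φ d, φ (φ d)) := rfl
  have hG : Gd X := by rw [hX]; exact (Gd.B h2 b).mul (Gd.C h2 c)
  obtain ⟨w1, hw1, e2⟩ := hG.2 (d, φ d, φ (φ d))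
  rw [← hD] at e2
  have hDD : D φ d * D φ d = 1 := D_sq h2 d
  have hXX : X * X = D φ (b * φ c + φ b * c) * (E e1 * Z f1) := by
    have hCC : C φ c * C φ c = 1 := C_sq h2 c
    have hBB : B φ b * B φ b = 1 := B_sq h2 b
    calc X * X = B φ b * C φ c * (B φ b * C φ c) := by rw [hX]
      _ = B φ b * C φ c * (C φ c * B φ b * D φ (b * φ c + φ b * c) * E e1 * Z f1) := by rw [h]
      _ = B φ b * (C φ c * C φ c) * B φ b * D φ (b * φ c + φ b * c) * E e1 * Z f1 := by group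
      _ = (B φ b * B φ b) * D φ (b * φ c + φ b * c) * E e1 * Z f1 := by rw [hCC]; group
      _ = _ := by rw [hBB]; group
  have hcD : ∀ {v : GL chevD4.Idx K}, Wc v → ∀ t : K, Commute v (D φ t) := fun hv t => hv.commD (t, φ t, φ (φ t))
  obtain ⟨e3, f3, h3⟩ := ((Wc.mul (⟨e1, f1, rfl⟩ : Wc (E e1 * Z f1)) hw1).mul hwc).mul hwc
  refine ⟨e3, f3, ?_⟩
  have h4 : B φ b * C φ c * D φ d * E e * Z f = X * D φ d * w := by rw [hX, hw]; group
  rw [h4]
  calc X * D φ d * w * (X * D φ d * w) = X * D φ d * (w * X) * D φ d * w := by group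
    _ = X * (D φ d * X) * (w * D φ d) * w := by rw [(hG.1 w hwc).eq]; group
    _ = X * X * D φ d * (w1 * D φ d) * w * w := by rw [e2, (hcD hwc d).eq]; group
    _ = X * X * (D φ d * D φ d) * w1 * w * w := by rw [(hcD hw1 d).eq]; group
    _ = D φ (b * φ c + φ b * c) * (E e1 * Z f1 * w1 * w * w) := by rw [hDD, hXX]; group
    _ = _ := by rw [h3]; group

/-- **The involutions.** -/
theorem sq_zero (h2 : ∀ x : K, x + x = 0) (hK3 : ∀ t : K, φ (φ (φ t)) = t) {b c d e f : K}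
    (h : (B φ b * C φ c * D φ d * E e * Z f) * (B φ b * C φ c * D φ d * E e * Z f) = 1) : b * φ c + φ b * c = 0 := by
  obtain ⟨e', f', h1⟩ := sq_eq h2 hK3 b c d e f
  rw [h1] at h
  have h3 : elt φ 0 0 0 (b * φ c + φ b * c) e' f' = elt φ 0 0 0 0 0 0 := by
    rw [elt_eq2 h2, elt_eq2 h2]
    simp only [A, E, Z, xG_zero, B_zero, C_zero, D_zero, one_mul, mul_one]
    exact h
  exact (elt_inj h3).2.2.2.1

end

end Cfsg.Agent.H327.TD
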